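import Cfsg.Agent.M24.Classes

/-! # Counting objects fixed by an element of `M24` -/

set_option autoImplicit false

namespace Cfsg.Agent.M24

open Finset MulAction
open scoped Pointwise symmDiff

theorem ncard_fix_cw {r : M24} {c : ℕ} (hc : mcode r = c) (k : M24) {w n : ℕ}
    (h : bsum (fun x => b2n (force (cw x) fun m => band (Nat.beq (pc m) w) (Nat.beq (act c m) m)))
      12 0 = n) : {o | o ∈ {s | IsCw s ∧ s.card = w} ∧ (k * r * k⁻¹) • o = o}.ncard = n := by
  rw [ncard_fixed_conj (D := {s | IsCw s ∧ s.card = w})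
    (fun (g : M24) x hx => ⟨hx.1.smul g.2, by rw [card_smul_finset]; exact hx.2⟩),
    ← h, ← ncard_cw (P := fun s => s.card = w ∧ r • s = s)]
  · simp only [Set.mem_ofPred_eq, and_assoc]
  · intro s _
    rw [band_eq, Bool.and_eq_true, Nat.beq_eq, card_eq_pc, ← hc, acSM.smul_eq_iff r trivial trivial]

theorem ncard_fix_trio {r : M24} {c : ℕ} (hc : mcode r = c) (k : M24) {n : ℕ}
    (h : tT.count (fun x => Nat.beq (apT c x) x) = n) :
    {o | o ∈ trios ∧ (k * r * k⁻¹) • o = o}.ncard = n := by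
  rw [ncard_fixed_conj (fun (g : M24) x hx => trio_smul hx g.2), ← h, ← hc]
  exact ncard_trios_filter fun x hx => acT.smul_eq_iff r hx hx

theorem ncard_fix_sext {r : M24} {c : ℕ} (hc : mcode r = c) (k : M24) {n : ℕ}
    (h : tS.count (fun x => Nat.beq (apS c x) x) = n) :
    {o | o ∈ sextets ∧ (k * r * k⁻¹) • o = o}.ncard = n := by
  rw [ncard_fixed_conj (fun (g : M24) x hx => sextet_smul hx g.2), ← h, ← hc]
  exact ncard_sextets_filter fun x hx => acX.smul_eq_iff r hx hx

theorem not_fpf_of_card {g : Equiv.Perm GolayPt} {n : ℕ} (h : (fixs g).card = n + 1) :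
    ¬ ∀ p, g p ≠ p := by
  rw [← fixs_eq_empty, ← card_eq_zero, h]; omega

theorem card_fixs_zA : (fixs zA).card = 8 := by rw [fixs_zA]; decide +kernel
theorem card_fixs_zB : (fixs zB).card = 0 := by rw [fixs_zB]; decide +kernel
theorem card_fixs_yA : (fixs yA).card = 6 := by rw [fixs_yA]; decide +kernel
theorem card_fixs_yB : (fixs yB).card = 0 := by rw [fixs_yB]; decide +kernel

theorem conj_of_two {G : Type*} [Group G] {g h r a b : G} (e : g = a * r * a⁻¹)
    (e' : h = b * r * b⁻¹) : (b * a⁻¹) * g * (b * a⁻¹)⁻¹ = h := by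
  rw [e, e']; group

end Cfsg.Agent.M24
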