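import Cfsg.Agent.M24.Fixed

/-! # Linear actions over the field with two elements; enumeration shortcuts -/

set_option autoImplicit false

namespace Cfsg.Agent.M24

open Finset MulAction Matrix

theorem exists_hom_SL {G X ι : Type*} [Group G] [MulAction G X] [Fintype ι] [DecidableEq ι]
    (op : X → X → X) (hop : ∀ (g : G) x y, g • op x y = op (g • x) (g • y))
    (φ : (ι → ZMod 2) → X) (hinj : Function.Injective φ) (hadd : ∀ u v, φ (u + v) = op (φ u) (φ v))
    (hinv : ∀ (g : G) v, ∃ v', g • φ v = φ v') :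
    ∃ f : G →* SpecialLinearGroup ι (ZMod 2), ∀ g v, g • φ v = φ ((f g).1 *ᵥ v) := by
  choose a ha using hinv
  have h1 : ∀ g u v, a g (u + v) = a g u + a g v := fun g u v =>
    hinj (by rw [← ha, hadd, hop, ha, ha, hadd])
  let L : G → (ι → ZMod 2) →ₗ[ZMod 2] (ι → ZMod 2) := fun g =>
    (AddMonoidHom.mk' (a g) (h1 g)).toZModLinearMap 2
  have hL : ∀ g v, L g v = a g v := fun _ _ => rfl
  have h2 : ∀ g h, L (g * h) = L g ∘ₗ L h := fun g h => LinearMap.ext fun v =>
    hinj (by rw [LinearMap.comp_apply, hL, hL, hL, ← ha, ← ha, ← ha, mul_smul])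
  have h3 : L 1 = LinearMap.id := LinearMap.ext fun v => hinj (by rw [hL, ← ha, one_smul]; rfl)
  have h4 : ∀ g, (LinearMap.toMatrix' (L g)).det = 1 := fun g => by
    have : LinearMap.toMatrix' (L g) * LinearMap.toMatrix' (L g⁻¹) = 1 := by
      rw [← LinearMap.toMatrix'_comp, ← h2, mul_inv_cancel, h3, LinearMap.toMatrix'_id]
    have := congrArg det this
    rw [det_mul, det_one] at this
    have h5 : ∀ x y : ZMod 2, x * y = 1 → x = 1 := by decide
    exact h5 _ _ this
  refine ⟨MonoidHom.mk' (fun g => ⟨LinearMap.toMatrix' (L g), h4 g⟩) fun g h => Subtype.ext ?_,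
    fun g v => ?_⟩
  · change LinearMap.toMatrix' (L (g * h)) = LinearMap.toMatrix' (L g) * LinearMap.toMatrix' (L h)
    rw [h2, LinearMap.toMatrix'_comp]
  · change _ = φ (LinearMap.toMatrix' (L g) *ᵥ v)
    rw [LinearMap.toMatrix'_mulVec, hL, ha]

theorem forall_of_enum {Ls : List Lvl} (h : chkM Ls = true) {f : ℕ → Bool}
    (he : enum mul f Ls one = true) : ∀ g ∈ gen mcode (gensOf Ls), f (mcode g) = true :=
  (chkM_sound h).2.1.enum_one gcM acM he

theorem mem_iff_sift {Ls : List Lvl} (h : chkM Ls = true) {g : M24} :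
    g ∈ gen mcode (gensOf Ls) ↔ sift mul one ap Ls (mcode g) = true := (chkM_sound h).2.2.2 g

theorem gen_le_gen {Ls : List Lvl} (h : chkM Ls = true) {l : List ℕ}
    (hl : lall l (sift mul one ap Ls) = true) : gen mcode l ≤ gen mcode (gensOf Ls) :=
  gen_le_of_all (fun _ hg => (mem_iff_sift h).2 hg) hl

theorem beq_mcode {g h : M24} : Nat.beq (mcode g) (mcode h) = true ↔ g = h := by
  rw [Nat.beq_eq, gcM.inj.eq_iff]

theorem le_sylow_of_card {G : Type*} [Group G] [Finite G] {p : ℕ} [Fact p.Prime] {N P H : Subgroup G}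
    (hN : N ≤ H) (hn : H ≤ Subgroup.normalizer (N : Set G)) (hp : IsPGroup p N) (hP : P ≤ H)
    (hc : Nat.card P = p ^ (Nat.card H).factorization p) : N ≤ P := by
  have : (N.subgroupOf H).Normal := (Subgroup.normal_subgroupOf_iff_le_normalizer hN).2 hn
  have h1 : IsPGroup p (N.subgroupOf H) := hp.of_equiv (Subgroup.subgroupOfEquivOfLe hN).symm
  have h2 := h1.le_sylow_of_normal (Sylow.ofCard (P.subgroupOf H)
    (by rw [Nat.card_congr (Subgroup.subgroupOfEquivOfLe hP).toEquiv, hc]))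
  exact fun x hx => h2 (x := ⟨x, hN hx⟩) hx

end Cfsg.Agent.M24
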